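import Cfsg.Agent.H18.PClosed

set_option autoImplicit false
open Cfsg

/-! Non-simple groups of order 2520 are 5-closed or 7-closed. -/

namespace Cfsg.Agent.H18.N2520

open Subgroup Cfsg.Agent.H18.PCl

universe u

/-- `p`-closed -/
def Cl (p : ℕ) (G : Type u) [Group G] : Prop := ∀ P : Sylow p G, (P : Subgroup G).Normal

theorem pow_dvd_centralizer {G : Type u} [Group G] [Finite G] {p : ℕ} [hp : Fact p.Prime] (P : Sylow p G)
    (N : Subgroup G) [hN : N.Normal] (hpN : ¬ p ∣ Nat.card N) (s k : ℕ) (hs : s.Prime)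
    (hg : ∀ c, 1 ≤ c → s ^ c ∣ Nat.card N → ¬ p ∣ s ^ c - 1) (hk : s ^ k ∣ Nat.card N) :
      s ^ k ∣ Nat.card (N ⊓ centralizer ((P : Subgroup G) : Set G) : Subgroup G) := by
  classical
    haveI : Fact s.Prime := ⟨hs⟩
    by_cases hsp : s = p
    · rcases Nat.eq_zero_or_pos k with rfl | h0
      · simp
      · exact absurd ((dvd_pow_self p h0.ne').trans (by rw [← hsp]; exact hk)) hpN
    obtain ⟨S⟩ : Nonempty (Sylow s N) := inferInstance
    have h1 := Sylow.normalizer_sup_eq_top S
    set S' : Subgroup G := (S : Subgroup N).map N.subtype with hS'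
    have h2 : Nat.card G ∣ Nat.card (normalizer (S' : Set G)) * Nat.card N := by
      have h3 := Cfsg.Agent.Solv.card_sup_dvd_of_normal (normalizer (S' : Set G)) N
      rw [h1, card_top] at h3
      exact h3
    have h4 : p ^ (Nat.card G).factorization p ∣ Nat.card (normalizer (S' : Set G)) := by
      have h5 : p ^ (Nat.card G).factorization p ∣ Nat.card (normalizer (S' : Set G)) * Nat.card N :=
        (Nat.ordProj_dvd _ _).trans h2
      exact (Nat.Coprime.dvd_of_dvd_mul_right
        (Nat.Coprime.pow_left _ ((Nat.Prime.coprime_iff_not_dvd hp.out).2 hpN)) h5)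
    obtain ⟨R, hR⟩ := Sylow.exists_subgroup_card_pow_prime p h4
    have hRp : IsPGroup p (R.map (normalizer (S' : Set G)).subtype) :=
      (IsPGroup.of_card hR).map _
    obtain ⟨T, hT⟩ := hRp.exists_le_sylow
    obtain ⟨g, hg'⟩ := MulAction.exists_smul_eq G T P
    have hTcard : Nat.card T = Nat.card (R.map (normalizer (S' : Set G)).subtype) := by
      rw [T.card_eq_multiplicity, Subgroup.card_map_of_injective (subtype_injective _), hR]
    have hTeq : (T : Subgroup G) = R.map (normalizer (S' : Set G)).subtype :=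
      (eq_of_le_of_card_ge hT hTcard.le).symm
    have hTn : (T : Subgroup G) ≤ normalizer (S' : Set G) := by
      rw [hTeq]; exact map_subtype_le _
    set Q : Subgroup G := S'.map (MulAut.conj g).toMonoidHom with hQ
    have hQN : Q ≤ N := by
      rintro x ⟨y, hy, rfl⟩
      have : y ∈ N := map_subtype_le _ hy
      exact hN.conj_mem y this g
    have hQs : IsPGroup s Q := (S.isPGroup'.map _).map _
    have hQc : Nat.card Q = Nat.card S := by
      rw [hQ, Subgroup.card_map_of_injective (MulAut.conj g).injective, hS',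
        Subgroup.card_map_of_injective (subtype_injective _)]
    have hPQ : ∀ a ∈ (P : Subgroup G), ∀ x ∈ Q, a * x * a⁻¹ ∈ Q := by
      rintro a ha x ⟨y, hy, rfl⟩
      have ha' : g⁻¹ * a * g ∈ (T : Subgroup G) := by
        have h7 : a ∈ ((g • T : Sylow p G) : Subgroup G) := by rw [hg']; exact ha
        rw [Sylow.coe_subgroup_smul] at h7
        have h8 := (Subgroup.mem_pointwise_smul_iff_inv_smul_mem).1 h7
        simpa [MulAut.smul_def, mul_assoc] using h8
      have hn := (mem_normalizer_iff.1 (hTn ha')) y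
      refine ⟨(g⁻¹ * a * g) * y * (g⁻¹ * a * g)⁻¹, hn.1 hy, ?_⟩
      simp [mul_assoc]
    have hcent : Q ≤ centralizer ((P : Subgroup G) : Set G) := by
      by_contra hcon
      obtain ⟨b, c, hc1, hc2, hc3, hc4⟩ := exists_pow_of_not_le hsp (P : Subgroup G) Q P.isPGroup' hQs hPQ hcon
      refine hg c hc1 ?_ hc4
      have : Nat.card Q ∣ Nat.card N := card_dvd_of_le hQN
      rw [hc2, pow_add] at this
      exact (Dvd.intro_left _ rfl).trans this
    have h9 : Nat.card Q ∣ Nat.card (N ⊓ centralizer ((P : Subgroup G) : Set G) : Subgroup G) :=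
      card_dvd_of_le (le_inf hQN hcent)
    refine Dvd.dvd.trans ?_ h9
    rw [hQc, S.card_eq_multiplicity]
    exact pow_dvd_pow _ ((hs.pow_dvd_iff_le_factorization Nat.card_pos.ne').1 hk)

/-- if a normal `N` is `p`-closed and contains the Sylow `p`-subgroups, `G` is `p`-closed. -/
theorem cl_of_index {G : Type u} [Group G] [Finite G] {p : ℕ} [hp : Fact p.Prime] (N : Subgroup G) [hNn : N.Normal]
    (hN : Cl p N) (hq : ¬ p ∣ Nat.card (G ⧸ N)) : Cl p G := by
  intro P
  have h2 : (P : Subgroup G) ≤ N := by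
    have h3 : IsPGroup p ((P : Subgroup G).map (QuotientGroup.mk' N)) := P.isPGroup'.map _
    rcases h3.card_eq_or_dvd with h4 | h4
    · rw [Subgroup.card_eq_one, Subgroup.map_eq_bot_iff, QuotientGroup.ker_mk'] at h4
      exact h4
    · exact absurd (h4.trans (Subgroup.card_subgroup_dvd_card _)) hq
  exact normal_of_subgroupOf P N h2 (hN (P.subtype h2))

/-- `p`-closed by counting Sylow subgroups. -/
theorem cl_of_count {G : Type u} [Group G] [Finite G] {p m : ℕ} [hp : Fact p.Prime] (hm : 0 < m)
    (h : ∀ P : Sylow p G, (P : Subgroup G).index ∣ m) (hc : ∀ k ≤ m, k ∣ m → k % p = 1 → k = 1) : Cl p G := by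
  intro P
  have h1 : Nat.card (Sylow p G) ≡ 1 [MOD p] := card_sylow_modEq_one p G
  have h2 : Nat.card (Sylow p G) ∣ m := (P.card_dvd_index).trans (h P)
  have h3 : Nat.card (Sylow p G) = 1 := by
    refine hc _ (Nat.le_of_dvd hm h2) h2 ?_
    rw [h1, Nat.mod_eq_of_lt hp.out.one_lt]
  have h4 : Subsingleton (Sylow p G) := (Nat.card_eq_one_iff_unique.1 h3).1
  exact Sylow.normal_of_subsingleton P

theorem cl_of_not_dvd {G : Type u} [Group G] [Finite G] {p : ℕ} [hp : Fact p.Prime] (h : ¬ p ∣ Nat.card G) : Cl p G := by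
  intro P
  have h2 : (P : Subgroup G) = ⊥ := by
    rcases P.isPGroup'.card_eq_or_dvd with h4 | h4
    · exact Subgroup.card_eq_one.1 h4
    · exact absurd (h4.trans (Subgroup.card_subgroup_dvd_card _)) h
  rw [h2]; infer_instance


theorem normal_of_cent {G : Type u} [Group G] [Finite G] {p : ℕ} [hp : Fact p.Prime] (P : Sylow p G)
    (N : Subgroup G) (hq : N.index = p) (h1 : N ≤ centralizer ((P : Subgroup G) : Set G)) :
    (P : Subgroup G).Normal := by
  have h2 : N ≤ normalizer ((P : Subgroup G) : Set G) := h1.trans (Subgroup.centralizer_le_normalizer _)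
  have h3 : (normalizer ((P : Subgroup G) : Set G)).index ∣ p := by
    have := Subgroup.index_dvd_of_le h2
    rwa [hq] at this
  have h4 : (normalizer ((P : Subgroup G) : Set G)).index ∣ (P : Subgroup G).index :=
    Subgroup.index_dvd_of_le le_normalizer
  rcases (Nat.dvd_prime hp.out).1 h3 with h5 | h5
  · rw [Subgroup.index_eq_one] at h5
    exact Subgroup.normalizer_eq_top_iff.1 h5
  · rw [h5] at h4
    exact absurd h4 (P.not_dvd_index' (Subgroup.index_ne_zero_of_finite))

theorem cl5 {N : Type u} [Group N] [Finite N] (C : Subgroup N) (hC : Nat.card C = 15 ∨ Nat.card C = 45)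
    (hi : C.index = 8) : Cl 5 N := by
  haveI : Fact (Nat.Prime 5) := ⟨by norm_num⟩
  obtain ⟨S⟩ : Nonempty (Sylow 5 C) := inferInstance
  have h5C : 5 ∣ Nat.card C := by rcases hC with h | h <;> rw [h] <;> norm_num
  have hClC : Cl 5 C := by
    refine cl_of_count (m := 9) (by norm_num) ?_ (by decide)
    intro P
    have h1 : 5 ∣ Nat.card (P : Subgroup C) := by
      by_contra h2
      have h3 := P.not_dvd_index' (Subgroup.index_ne_zero_of_finite)
      have h4 := (P : Subgroup C).card_mul_index
      rw [← h4, (show Nat.Prime 5 by norm_num).dvd_mul] at h5C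
      tauto
    obtain ⟨k, hk⟩ := h1
    have h4 := (P : Subgroup C).card_mul_index
    rw [hk] at h4
    rcases hC with h | h
    · rw [h] at h4
      have h5 : k * (P : Subgroup C).index = 3 := by nlinarith
      exact (Dvd.intro_left _ h5).trans (by norm_num)
    · rw [h] at h4
      have h5 : k * (P : Subgroup C).index = 9 := by nlinarith
      exact (Dvd.intro_left _ h5)
  have hSn := hClC S
  have hfac : (Nat.card N).factorization 5 = (Nat.card C).factorization 5 := by
    rw [← C.card_mul_index, hi, Nat.factorization_mul (Nat.card_pos.ne') (by norm_num)]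
    simp [Nat.factorization_eq_zero_of_not_dvd (show ¬ 5 ∣ 8 by norm_num)]
  let T : Sylow 5 N := Sylow.ofCard ((S : Subgroup C).map C.subtype) (by
    rw [card_map_of_injective (subtype_injective _), S.card_eq_multiplicity, hfac])
  have hT : (T : Subgroup N) = (S : Subgroup C).map C.subtype := Sylow.coe_ofCard _ _
  have h1 : C ≤ normalizer ((T : Subgroup N) : Set N) := by
    rw [hT]
    intro c hc
    rw [mem_normalizer_iff]
    have key : ∀ c ∈ C, ∀ h ∈ (S : Subgroup C).map C.subtype, c * h * c⁻¹ ∈ (S : Subgroup C).map C.subtype := by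
      rintro c hc h ⟨x, hx, rfl⟩
      exact ⟨⟨c, hc⟩ * x * ⟨c, hc⟩⁻¹, hSn.conj_mem x hx ⟨c, hc⟩, rfl⟩
    intro h
    refine ⟨key c hc h, fun h2 => ?_⟩
    have := key c⁻¹ (C.inv_mem hc) _ h2
    simpa [mul_assoc] using this
  have h2 : Nat.card (Sylow 5 N) ∣ 8 := by
    rw [T.card_eq_index_normalizer, ← hi]
    exact Subgroup.index_dvd_of_le h1
  have h3 : Nat.card (Sylow 5 N) ≡ 1 [MOD 5] := card_sylow_modEq_one 5 N
  have h4 : Nat.card (Sylow 5 N) = 1 := by
    have h5 := Nat.le_of_dvd (by norm_num) h2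
    have h6 : Nat.card (Sylow 5 N) % 5 = 1 := h3
    generalize Nat.card (Sylow 5 N) = k at *
    interval_cases k <;> simp_all
  intro P
  have h5 : Subsingleton (Sylow 5 N) := (Nat.card_eq_one_iff_unique.1 h4).1
  exact Sylow.normal_of_subsingleton P

/-- `P` of order 7 acting on a normal subgroup of order 120 or 360 and index 7. -/
theorem seven_step {G : Type u} [Group G] [Finite G] (N : Subgroup G) [hN : N.Normal] {c : ℕ}
    (hcard : Nat.card N = 8 * c) (hc : c = 15 ∨ c = 45) (hi : N.index = 7) : Cl 5 G ∨ Cl 7 G := by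
  haveI : Fact (Nat.Prime 5) := ⟨by norm_num⟩
  haveI : Fact (Nat.Prime 7) := ⟨by norm_num⟩
  obtain ⟨P⟩ : Nonempty (Sylow 7 G) := inferInstance
  have hp7 : ¬ 7 ∣ Nat.card N := by rw [hcard]; rcases hc with rfl | rfl <;> norm_num
  set C := (N ⊓ centralizer ((P : Subgroup G) : Set G) : Subgroup G) with hCdef
  have h1 : Nat.card N ≡ Nat.card C [MOD 7] :=
    card_inf_centralizer (P : Subgroup G) N P.isPGroup' (fun g _ x hx => hN.conj_mem x hx g)
  have h2 : c ∣ Nat.card C := by
    rcases hc with rfl | rfl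
    · have h3 : 3 ^ 1 ∣ Nat.card C := pow_dvd_centralizer P N hp7 3 1 (by norm_num) (by
        intro k hk1 hk2
        rw [hcard] at hk2
        have : k < 2 := by
          by_contra h
          have := (pow_dvd_pow 3 (show 2 ≤ k by omega)).trans hk2
          norm_num at this
        interval_cases k; norm_num) (by rw [hcard]; norm_num)
      have h5 : 5 ^ 1 ∣ Nat.card C := pow_dvd_centralizer P N hp7 5 1 (by norm_num) (by
        intro k hk1 hk2
        rw [hcard] at hk2
        have : k < 2 := by
          by_contra h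
          have := (pow_dvd_pow 5 (show 2 ≤ k by omega)).trans hk2
          norm_num at this
        interval_cases k; norm_num) (by rw [hcard]; norm_num)
      exact Nat.Coprime.mul_dvd_of_dvd_of_dvd (by norm_num) h3 h5
    · have h3 : 3 ^ 2 ∣ Nat.card C := pow_dvd_centralizer P N hp7 3 2 (by norm_num) (by
        intro k hk1 hk2
        rw [hcard] at hk2
        have : k < 3 := by
          by_contra h
          have := (pow_dvd_pow 3 (show 3 ≤ k by omega)).trans hk2
          norm_num at this
        interval_cases k <;> norm_num) (by rw [hcard]; norm_num)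
      have h5 : 5 ^ 1 ∣ Nat.card C := pow_dvd_centralizer P N hp7 5 1 (by norm_num) (by
        intro k hk1 hk2
        rw [hcard] at hk2
        have : k < 2 := by
          by_contra h
          have := (pow_dvd_pow 5 (show 2 ≤ k by omega)).trans hk2
          norm_num at this
        interval_cases k; norm_num) (by rw [hcard]; norm_num)
      exact Nat.Coprime.mul_dvd_of_dvd_of_dvd (by norm_num) h3 h5
  have h3 : Nat.card C ∣ Nat.card N := card_dvd_of_le inf_le_left
  have h4 : Nat.card C = c ∨ Nat.card C = 8 * c := by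
    obtain ⟨k, hk⟩ := h2
    have hc0 : 0 < c := by rcases hc with rfl | rfl <;> norm_num
    rw [hk, hcard] at h3
    have h5 : k ∣ 8 := by
      rw [mul_comm c k] at h3
      exact Nat.dvd_of_mul_dvd_mul_right hc0 h3
    have h6 : Nat.card N % 7 = Nat.card C % 7 := h1
    rw [hk, hcard] at h6
    rw [hk]
    have h7 := Nat.le_of_dvd (by norm_num) h5
    rcases hc with rfl | rfl <;> interval_cases k <;> simp_all
  rcases h4 with h4 | h4
  · left
    have hidx : (C.subgroupOf N).index = 8 := by
      have h5 := (C.subgroupOf N).card_mul_index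
      have h6 : Nat.card (C.subgroupOf N) = c := by
        rw [← h4]
        exact Nat.card_congr (Subgroup.subgroupOfEquivOfLe (inf_le_left : C ≤ N)).toEquiv
      rw [h6, hcard] at h5
      rcases hc with rfl | rfl <;> omega
    have h6 : Nat.card (C.subgroupOf N) = c := by
      rw [← h4]
      exact Nat.card_congr (Subgroup.subgroupOfEquivOfLe (inf_le_left : C ≤ N)).toEquiv
    have h7 : Cl 5 N := cl5 (C.subgroupOf N) (by rw [h6]; exact hc) hidx
    exact cl_of_index N h7 (by rw [← Subgroup.index_eq_card, hi]; norm_num)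
  · right
    have h5 : C = N := eq_of_le_of_card_ge inf_le_left (by rw [h4, hcard])
    have h6 : (P : Subgroup G).Normal := normal_of_cent P N hi (inf_eq_left.1 h5)
    intro Q
    obtain ⟨g, rfl⟩ := MulAction.exists_smul_eq G P Q
    haveI := h6
    rw [Sylow.smul_eq_of_normal]
    exact h6


theorem cl_count {G : Type u} [Group G] [Finite G] {p m : ℕ} [hp : Fact p.Prime] (hcard : Nat.card G = p * m)
    (hm : 0 < m) (hc : ∀ k ≤ m, k ∣ m → k % p = 1 → k = 1) : Cl p G := by
  refine cl_of_count hm ?_ hc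
  intro P
  have h1 : p ∣ Nat.card (P : Subgroup G) := P.dvd_card_of_dvd_card (hcard ▸ Dvd.intro _ rfl)
  obtain ⟨k, hk⟩ := h1
  have h4 := (P : Subgroup G).card_mul_index
  rw [hk, hcard, mul_assoc] at h4
  exact Dvd.intro_left _ (Nat.eq_of_mul_eq_mul_left hp.out.pos h4)

/-- the orders of simple groups below 2520. -/
def Ords : Prop := ∀ (H : Type u) [Group H] [Finite H], IsSimpleGroup H → ¬ IsMulCommutative H →
  Nat.card H < 2520 → Nat.card H ∈ ([60, 168, 360, 504, 660, 1092, 2448] : List ℕ)

theorem clX (hO : Ords.{u}) {p n : ℕ} [hp : Fact p.Prime] {G : Type u} [Group G] [Finite G] (hcard : Nat.card G = n)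
    (hn : n < 2520) (hn0 : 0 < n) (hp2 : ¬ p ^ 2 ∣ n) (hg : goodB p n = true)
    (hl : ∀ k ∈ ([60, 168, 360, 504, 660, 1092, 2448] : List ℕ), k ∣ n → ¬ p ∣ k) : Cl p G :=
  closed_X n G hcard hp2 (good_of_B hn0 hg) (fun H _ _ h1 h2 h3 =>
    hl _ (hO H h1 h2 ((Nat.le_of_dvd hn0 h3).trans_lt hn)) h3)

theorem prime_of_comm {Q : Type u} [Group Q] [Finite Q] (hs : IsSimpleGroup Q) (h : IsMulCommutative Q) :
    (Nat.card Q).Prime := by
  letI : CommGroup Q := { (inferInstance : Group Q) with
    mul_comm := fun a b => (h.is_comm.comm a b) }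
  exact IsSimpleGroup.prime_card

theorem c840 (hO : Ords.{u}) {N : Type u} [Group N] [Finite N] (hcard : Nat.card N = 840) : Cl 5 N ∨ Cl 7 N := by
  haveI : Fact (Nat.Prime 5) := ⟨by norm_num⟩
  haveI : Fact (Nat.Prime 7) := ⟨by norm_num⟩
  haveI : Nontrivial N := by rw [← Finite.one_lt_card_iff_nontrivial, hcard]; norm_num
  obtain ⟨M, hMn, hMt, hs⟩ := exists_maxNormal N
  have hc : Nat.card (N ⧸ M) * Nat.card M = 840 := by
    rw [← hcard]; exact (Subgroup.card_eq_card_quotient_mul_card_subgroup M).symm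
  have hdQ : Nat.card (N ⧸ M) ∣ 840 := Dvd.intro _ hc
  by_cases hcm : IsMulCommutative (N ⧸ M)
  · have hp := prime_of_comm hs hcm
    have h1 : Nat.card (N ⧸ M) = 2 ∨ Nat.card (N ⧸ M) = 3 ∨ Nat.card (N ⧸ M) = 5 ∨ Nat.card (N ⧸ M) = 7 := by
      have h2 : Nat.card (N ⧸ M) ∣ 2 ^ 3 * 3 * 5 * 7 := hdQ.trans (by norm_num)
      rw [hp.dvd_mul, hp.dvd_mul, hp.dvd_mul] at h2
      rcases h2 with ((h2 | h2) | h2) | h2
      · exact Or.inl ((Nat.prime_dvd_prime_iff_eq hp (by norm_num)).1 (hp.dvd_of_dvd_pow h2))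
      · exact Or.inr (Or.inl ((Nat.prime_dvd_prime_iff_eq hp (by norm_num)).1 h2))
      · exact Or.inr (Or.inr (Or.inl ((Nat.prime_dvd_prime_iff_eq hp (by norm_num)).1 h2)))
      · exact Or.inr (Or.inr (Or.inr ((Nat.prime_dvd_prime_iff_eq hp (by norm_num)).1 h2)))
    rcases h1 with h1 | h1 | h1 | h1 <;> rw [h1] at hc
    · right
      have hM : Nat.card M = 420 := by omega
      exact cl_of_index M (clX hO hM (by norm_num) (by norm_num) (by norm_num) (by decide +kernel) (by decide))
        (by rw [h1]; norm_num)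
    · left
      have hM : Nat.card M = 280 := by omega
      exact cl_of_index M (clX hO hM (by norm_num) (by norm_num) (by norm_num) (by decide +kernel) (by decide))
        (by rw [h1]; norm_num)
    · left
      have hM : Nat.card M = 168 := by omega
      exact step M (by rw [hcard]; norm_num) (by rw [hcard]; exact good_of_B (by norm_num) (by decide +kernel))
        (cl_of_not_dvd (by rw [hM]; norm_num)) (Or.inl h1)
    · have hM : Nat.card M = 8 * 15 := by omega
      exact seven_step M hM (Or.inl rfl) (by rw [Subgroup.index_eq_card]; exact h1)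
  · have h1 := hO (N ⧸ M) hs hcm ((Nat.le_of_dvd (by norm_num) hdQ).trans_lt (by norm_num))
    simp only [List.mem_cons, List.not_mem_nil, or_false] at h1
    rcases h1 with h1 | h1 | h1 | h1 | h1 | h1 | h1 <;> rw [h1] at hc
    · right
      have hM : Nat.card M = 7 * 2 := by omega
      exact cl_of_index M (cl_count hM (by norm_num) (by decide)) (by rw [h1]; norm_num)
    · left
      have hM : Nat.card M = 5 * 1 := by omega
      exact cl_of_index M (cl_count hM (by norm_num) (by decide)) (by rw [h1]; norm_num)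
    all_goals omega

theorem n2520 (hO : Ords.{u}) {G : Type u} [Group G] [Finite G] (hcard : Nat.card G = 2520)
    (hns : ¬ IsSimpleGroup G) : Cl 5 G ∨ Cl 7 G := by
  haveI : Fact (Nat.Prime 5) := ⟨by norm_num⟩
  haveI : Fact (Nat.Prime 7) := ⟨by norm_num⟩
  haveI : Nontrivial G := by rw [← Finite.one_lt_card_iff_nontrivial, hcard]; norm_num
  obtain ⟨N, hNn, hNt, hs⟩ := exists_maxNormal G
  have hc : Nat.card (G ⧸ N) * Nat.card N = 2520 := by
    rw [← hcard]; exact (Subgroup.card_eq_card_quotient_mul_card_subgroup N).symm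
  have hdQ : Nat.card (G ⧸ N) ∣ 2520 := Dvd.intro _ hc
  have hN1 : Nat.card N ≠ 1 := by
    intro h
    apply hns
    have h1 : N = ⊥ := Subgroup.card_eq_one.1 h
    subst h1
    exact IsSimpleGroup.isSimpleGroup_of_surjective (QuotientGroup.quotientBot (G := G)).toMonoidHom
      (QuotientGroup.quotientBot (G := G)).surjective
  by_cases hcm : IsMulCommutative (G ⧸ N)
  · have hp := prime_of_comm hs hcm
    have h1 : Nat.card (G ⧸ N) = 2 ∨ Nat.card (G ⧸ N) = 3 ∨ Nat.card (G ⧸ N) = 5 ∨ Nat.card (G ⧸ N) = 7 := by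
      have h2 : Nat.card (G ⧸ N) ∣ 2 ^ 3 * 3 ^ 2 * 5 * 7 := hdQ.trans (by norm_num)
      rw [hp.dvd_mul, hp.dvd_mul, hp.dvd_mul] at h2
      rcases h2 with ((h2 | h2) | h2) | h2
      · exact Or.inl ((Nat.prime_dvd_prime_iff_eq hp (by norm_num)).1 (hp.dvd_of_dvd_pow h2))
      · exact Or.inr (Or.inl ((Nat.prime_dvd_prime_iff_eq hp (by norm_num)).1 (hp.dvd_of_dvd_pow h2)))
      · exact Or.inr (Or.inr (Or.inl ((Nat.prime_dvd_prime_iff_eq hp (by norm_num)).1 h2)))
      · exact Or.inr (Or.inr (Or.inr ((Nat.prime_dvd_prime_iff_eq hp (by norm_num)).1 h2)))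
    rcases h1 with h1 | h1 | h1 | h1 <;> rw [h1] at hc
    · right
      have hM : Nat.card N = 1260 := by omega
      exact cl_of_index N (clX hO hM (by norm_num) (by norm_num) (by norm_num) (by decide +kernel) (by decide))
        (by rw [h1]; norm_num)
    · have hM : Nat.card N = 840 := by omega
      rcases c840 hO hM with h2 | h2
      · exact Or.inl (cl_of_index N h2 (by rw [h1]; norm_num))
      · exact Or.inr (cl_of_index N h2 (by rw [h1]; norm_num))
    · left
      have hM : Nat.card N = 504 := by omega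
      exact step N (by rw [hcard]; norm_num) (by rw [hcard]; exact good_of_B (by norm_num) (by decide +kernel))
        (cl_of_not_dvd (by rw [hM]; norm_num)) (Or.inl h1)
    · have hM : Nat.card N = 8 * 45 := by omega
      exact seven_step N hM (Or.inr rfl) (by rw [Subgroup.index_eq_card]; exact h1)
  · have h0 : Nat.card (G ⧸ N) < 2520 := by
      have : 0 < Nat.card N := Nat.card_pos
      have : 0 < Nat.card (G ⧸ N) := Nat.card_pos
      nlinarith [show 2 ≤ Nat.card N by omega]
    have h1 := hO (G ⧸ N) hs hcm h0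
    simp only [List.mem_cons, List.not_mem_nil, or_false] at h1
    rcases h1 with h1 | h1 | h1 | h1 | h1 | h1 | h1 <;> rw [h1] at hc
    · right
      have hM : Nat.card N = 7 * 6 := by omega
      exact cl_of_index N (cl_count hM (by norm_num) (by decide)) (by rw [h1]; norm_num)
    · left
      have hM : Nat.card N = 5 * 3 := by omega
      exact cl_of_index N (cl_count hM (by norm_num) (by decide)) (by rw [h1]; norm_num)
    · right
      have hM : Nat.card N = 7 * 1 := by omega
      exact cl_of_index N (cl_count hM (by norm_num) (by decide)) (by rw [h1]; norm_num)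
    · left
      have hM : Nat.card N = 5 * 1 := by omega
      exact cl_of_index N (cl_count hM (by norm_num) (by decide)) (by rw [h1]; norm_num)
    all_goals omega

/-- final form. -/
theorem n2520' (hO : Ords.{u}) {G : Type u} [Group G] [Finite G] (hcard : Nat.card G = 2520)
    (hns : ¬ IsSimpleGroup G) (h5 : 5 ∈ Cfsg.degreePrimes G) (h7 : 7 ∈ Cfsg.degreePrimes G) : False := by
  haveI : Fact (Nat.Prime 5) := ⟨by norm_num⟩
  haveI : Fact (Nat.Prime 7) := ⟨by norm_num⟩
  rcases n2520 hO hcard hns with h | h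
  · obtain ⟨P⟩ : Nonempty (Sylow 5 G) := inferInstance
    exact not_mem_degreePrimes P (h P) (comm_of_sq P (by rw [hcard]; norm_num)) h5
  · obtain ⟨P⟩ : Nonempty (Sylow 7 G) := inferInstance
    exact not_mem_degreePrimes P (h P) (comm_of_sq P (by rw [hcard]; norm_num)) h7

end Cfsg.Agent.H18.N2520
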