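import Cfsg.Statements.S3668
import Cfsg.Agent.H75.Ito
import Cfsg.Agent.Solv.MinNormal
import Cfsg.Agent.H34.PDeg

set_option autoImplicit false
open Cfsg

/-! Sylow `p`-subgroups of order `p` that are normal by arithmetic. -/

namespace Cfsg.Agent.H18.PCl

universe u

open Subgroup

/-- counting fixed points of a conjugation action. -/
theorem card_inf_centralizer {G : Type*} [Group G] [Finite G] {p : ℕ} [Fact p.Prime]
    (P Q : Subgroup G) (hP : IsPGroup p P) (hPQ : ∀ g ∈ P, ∀ x ∈ Q, g * x * g⁻¹ ∈ Q) :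
    Nat.card Q ≡ Nat.card (Q ⊓ centralizer (P : Set G) : Subgroup G) [MOD p] := by
  classical
  letI act : MulAction P Q :=
    { smul := fun g x => ⟨(g : G) * x * (g : G)⁻¹, hPQ g g.2 x x.2⟩
      one_smul := fun x => Subtype.ext (show ((1 : P) : G) * x * ((1 : P) : G)⁻¹ = x by simp)
      mul_smul := fun g h x => Subtype.ext (show ((g * h : P) : G) * x * ((g * h : P) : G)⁻¹ =
        (g : G) * ((h : G) * x * (h : G)⁻¹) * (g : G)⁻¹ by simp [mul_assoc]) }
  have h1 := hP.card_modEq_card_fixedPoints Q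
  refine h1.trans ?_
  have h2 : Nat.card (MulAction.fixedPoints P Q) = Nat.card (Q ⊓ centralizer (P : Set G) : Subgroup G) := by
    refine Nat.card_congr
      { toFun := fun x => ⟨(x : Q), ⟨(x : Q).2, ?_⟩⟩
        invFun := fun x => ⟨⟨x, x.2.1⟩, ?_⟩
        left_inv := fun x => rfl
        right_inv := fun x => rfl }
    · refine mem_centralizer_iff.2 ?_
      intro g hg
      have h3 : (g : G) * ((x : Q) : G) * (g : G)⁻¹ = ((x : Q) : G) := congrArg Subtype.val (x.2 ⟨g, hg⟩)
      rw [mul_inv_eq_iff_eq_mul] at h3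
      exact h3
    · intro g
      have h3 : ((g : G)) * (x : G) = (x : G) * (g : G) := (mem_centralizer_iff.1 x.2.2) g g.2
      refine Subtype.ext (show (g : G) * (x : G) * (g : G)⁻¹ = (x : G) from ?_)
      rw [h3, mul_inv_cancel_right]
  rw [h2]

/-- if `P` does not centralise the `P`-invariant `s`-group `Q`, an `s`-power dividing `|Q|` is `1 mod p`. -/
theorem exists_pow_of_not_le {G : Type*} [Group G] [Finite G] {p s : ℕ} [hp : Fact p.Prime] [hs : Fact s.Prime]
    (hne : s ≠ p) (P Q : Subgroup G) (hP : IsPGroup p P) (hQ : IsPGroup s Q)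
    (hPQ : ∀ g ∈ P, ∀ x ∈ Q, g * x * g⁻¹ ∈ Q) (hn : ¬ Q ≤ centralizer (P : Set G)) :
    ∃ b c, 1 ≤ c ∧ Nat.card Q = s ^ (b + c) ∧
      Nat.card (Q ⊓ centralizer (P : Set G) : Subgroup G) = s ^ b ∧ p ∣ s ^ c - 1 := by
  obtain ⟨m, hm⟩ := IsPGroup.iff_card.1 hQ
  obtain ⟨b, hb⟩ := IsPGroup.iff_card.1 (hQ.to_le (K := Q) (H := Q ⊓ centralizer (P : Set G)) inf_le_left)
  have h1 := card_inf_centralizer P Q hP hPQ
  have h2 : Nat.card (Q ⊓ centralizer (P : Set G) : Subgroup G) ∣ Nat.card Q := card_dvd_of_le inf_le_left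
  rw [hm, hb] at h2
  have hbm : b ≤ m := (Nat.pow_dvd_pow_iff_le_right hs.out.one_lt).1 h2
  have hlt : b ≠ m := by
    rintro rfl
    apply hn
    have h3 : Q ⊓ centralizer (P : Set G) = Q := eq_of_le_of_card_ge inf_le_left (by rw [hm, hb])
    exact inf_eq_left.1 h3
  refine ⟨b, m - b, by omega, by rw [hm]; congr 1; omega, hb, ?_⟩
  rw [hm, hb] at h1
  have h4 : p ∣ s ^ m - s ^ b := (Nat.modEq_iff_dvd' (Nat.pow_le_pow_right hs.out.pos hbm)).1 h1.symm
  have h5 : s ^ m - s ^ b = s ^ b * (s ^ (m - b) - 1) := by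
    rw [Nat.mul_sub, mul_one, ← pow_add]; congr 2; omega
  rw [h5] at h4
  refine (Nat.Coprime.dvd_of_dvd_mul_left ?_ h4)
  exact Nat.Coprime.pow_right _ ((Nat.coprime_primes hp.out hs.out).2 (Ne.symm hne))

/-- a Sylow subgroup contained and normal in a normal subgroup is normal. -/
theorem normal_of_subgroupOf {G : Type*} [Group G] [Finite G] {p : ℕ} [Fact p.Prime] (P : Sylow p G)
    (N : Subgroup G) [hN : N.Normal] (hPN : (P : Subgroup G) ≤ N)
    (h : ((P : Subgroup G).subgroupOf N).Normal) : (P : Subgroup G).Normal := by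
  have h1 : ((P.subtype hPN : Sylow p N) : Subgroup N).Normal := h
  have h2 : ((P.subtype hPN : Sylow p N) : Subgroup N).Characteristic :=
    Sylow.characteristic_of_normal _ h1
  have h3 : (((P.subtype hPN : Sylow p N) : Subgroup N).map N.subtype).Normal :=
    ConjAct.normal_of_characteristic_of_normal
  have h4 : ((P.subtype hPN : Sylow p N) : Subgroup N).map N.subtype = P := by
    rw [Sylow.coe_subtype, Subgroup.subgroupOf_map_subtype, inf_eq_left.2 hPN]
  rwa [h4] at h3

/-- the condition on prime powers. -/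
def Good (p n : ℕ) : Prop := ∀ s c, s.Prime → s ≠ p → 1 ≤ c → s ^ c ∣ n → ¬ p ∣ s ^ c - 1

theorem Good.mono {p n m : ℕ} (h : Good p n) (hm : m ∣ n) : Good p m :=
  fun s c h1 h2 h3 h4 => h s c h1 h2 h3 (h4.trans hm)

/-- a normal `p'`-subgroup with good order is centralised by `P`. -/
theorem le_centralizer_of_good {G : Type*} [Group G] [Finite G] {p : ℕ} [hp : Fact p.Prime] (P : Sylow p G)
    (N : Subgroup G) [hN : N.Normal] (hpN : ¬ p ∣ Nat.card N) (hg : Good p (Nat.card N)) :
    N ≤ centralizer ((P : Subgroup G) : Set G) := by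
  classical
  have key : ∀ s k, s.Prime → s ^ k ∣ Nat.card N →
      s ^ k ∣ Nat.card (N ⊓ centralizer ((P : Subgroup G) : Set G) : Subgroup G) := by
    intro s k hs hk
    haveI : Fact s.Prime := ⟨hs⟩
    by_cases hsp : s = p
    · rcases Nat.eq_zero_or_pos k with rfl | h0
      · simp
      · exact absurd ((dvd_pow_self p h0.ne').trans (by rw [← hsp]; exact hk)) hpN
    obtain ⟨S⟩ : Nonempty (Sylow s N) := inferInstance
    have h1 := Sylow.normalizer_sup_eq_top S
    set S' : Subgroup G := (S : Subgroup N).map N.subtype with hS'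
    -- `p`-part of the normaliser
    have hPcard := P.card_eq_multiplicity
    have h2 : Nat.card G ∣ Nat.card (normalizer (S' : Set G)) * Nat.card N := by
      have h3 := Cfsg.Agent.Solv.card_sup_dvd_of_normal (normalizer (S' : Set G)) N
      rw [h1, card_top] at h3
      exact h3
    have h4 : p ^ (Nat.card G).factorization p ∣ Nat.card (normalizer (S' : Set G)) := by
      have h5 : p ^ (Nat.card G).factorization p ∣ Nat.card (normalizer (S' : Set G)) * Nat.card N :=
        (Nat.ordProj_dvd _ _).trans h2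
      exact (Nat.Coprime.dvd_of_dvd_mul_right
        (Nat.Coprime.pow_left _ ((Nat.Prime.coprime_iff_not_dvd hp.out).2 hpN)) h5)
    obtain ⟨R, hR⟩ := Sylow.exists_subgroup_card_pow_prime p h4
    have hRp : IsPGroup p (R.map (normalizer (S' : Set G)).subtype) :=
      (IsPGroup.of_card hR).map _
    obtain ⟨T, hT⟩ := hRp.exists_le_sylow
    obtain ⟨g, hg'⟩ := MulAction.exists_smul_eq G T P
    have hTcard : Nat.card T = Nat.card (R.map (normalizer (S' : Set G)).subtype) := by
      rw [T.card_eq_multiplicity, Subgroup.card_map_of_injective (subtype_injective _), hR]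
    have hTeq : (T : Subgroup G) = R.map (normalizer (S' : Set G)).subtype :=
      (eq_of_le_of_card_ge hT hTcard.le).symm
    have hTn : (T : Subgroup G) ≤ normalizer (S' : Set G) := by
      rw [hTeq]; exact map_subtype_le _
    -- conjugate
    set Q : Subgroup G := S'.map (MulAut.conj g).toMonoidHom with hQ
    have hQN : Q ≤ N := by
      rintro x ⟨y, hy, rfl⟩
      have : y ∈ N := map_subtype_le _ hy
      exact hN.conj_mem y this g
    have hQs : IsPGroup s Q := (S.isPGroup'.map _).map _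
    have hQc : Nat.card Q = Nat.card S := by
      rw [hQ, Subgroup.card_map_of_injective (MulAut.conj g).injective, hS',
        Subgroup.card_map_of_injective (subtype_injective _)]
    have hPQ : ∀ a ∈ (P : Subgroup G), ∀ x ∈ Q, a * x * a⁻¹ ∈ Q := by
      rintro a ha x ⟨y, hy, rfl⟩
      have ha' : g⁻¹ * a * g ∈ (T : Subgroup G) := by
        have h7 : a ∈ ((g • T : Sylow p G) : Subgroup G) := by rw [hg']; exact ha
        rw [Sylow.coe_subgroup_smul] at h7
        have h8 := (Subgroup.mem_pointwise_smul_iff_inv_smul_mem).1 h7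
        simpa [MulAut.smul_def, mul_assoc] using h8
      have hn := (mem_normalizer_iff.1 (hTn ha')) y
      refine ⟨(g⁻¹ * a * g) * y * (g⁻¹ * a * g)⁻¹, hn.1 hy, ?_⟩
      simp [mul_assoc]
    have hcent : Q ≤ centralizer ((P : Subgroup G) : Set G) := by
      by_contra hcon
      obtain ⟨b, c, hc1, hc2, hc3, hc4⟩ := exists_pow_of_not_le hsp (P : Subgroup G) Q P.isPGroup' hQs hPQ hcon
      refine hg s c hs hsp hc1 ?_ hc4
      have : Nat.card Q ∣ Nat.card N := card_dvd_of_le hQN
      rw [hc2, pow_add] at this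
      exact (Dvd.intro_left _ rfl).trans this
    have h9 : Nat.card Q ∣ Nat.card (N ⊓ centralizer ((P : Subgroup G) : Set G) : Subgroup G) :=
      card_dvd_of_le (le_inf hQN hcent)
    refine Dvd.dvd.trans ?_ h9
    rw [hQc, S.card_eq_multiplicity]
    exact pow_dvd_pow _ ((hs.pow_dvd_iff_le_factorization Nat.card_pos.ne').1 hk)
  have h1 : Nat.card N ∣ Nat.card (N ⊓ centralizer ((P : Subgroup G) : Set G) : Subgroup G) := by
    rw [Nat.dvd_iff_prime_pow_dvd_dvd]
    exact key
  have h2 : N ⊓ centralizer ((P : Subgroup G) : Set G) = N :=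
    eq_of_le_of_card_ge inf_le_left (Nat.le_of_dvd Nat.card_pos h1)
  exact inf_eq_left.1 h2


theorem comm_of_sq {G : Type*} [Group G] [Finite G] {p : ℕ} [hp : Fact p.Prime] (P : Sylow p G)
    (hp2 : ¬ p ^ 2 ∣ Nat.card G) : ∀ a ∈ (P : Subgroup G), ∀ b ∈ (P : Subgroup G), a * b = b * a := by
  have h1 := P.card_eq_multiplicity
  have h2 : (Nat.card G).factorization p < 2 := by
    by_contra hcon
    push Not at hcon
    exact hp2 ((hp.out.pow_dvd_iff_le_factorization Nat.card_pos.ne').2 hcon)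
  have h3 : IsCyclic (P : Subgroup G) := by
    interval_cases h : (Nat.card G).factorization p
    · have : Subsingleton (P : Subgroup G) := (Nat.card_eq_one_iff_unique.1 (by rw [h1]; simp)).1
      exact isCyclic_of_subsingleton
    · exact isCyclic_of_prime_card (p := p) (by rw [h1, pow_one])
  intro a ha b hb
  have h4 : (⟨a, ha⟩ : (P : Subgroup G)) * ⟨b, hb⟩ = ⟨b, hb⟩ * ⟨a, ha⟩ := by
    letI := IsCyclic.commGroup (α := (P : Subgroup G))
    exact mul_comm _ _
  exact congrArg Subtype.val h4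

/-- Itô: no degree is divisible by `p` if the Sylow `p`-subgroup is abelian and normal. -/
theorem not_mem_degreePrimes {G : Type*} [Group G] [Finite G] {p : ℕ} [hp : Fact p.Prime] (P : Sylow p G)
    (hP : (P : Subgroup G).Normal) (hab : ∀ a ∈ (P : Subgroup G), ∀ b ∈ (P : Subgroup G), a * b = b * a) :
    p ∉ Cfsg.degreePrimes G := by
  rintro ⟨-, d, ⟨χ, rfl⟩, hd⟩
  rw [Cfsg.Agent.H75.charDegree_eq_deg] at hd
  have h1 := Cfsg.Agent.H75.ito χ (P : Subgroup G) hab
  exact P.not_dvd_index' (Subgroup.index_ne_zero_of_finite) (hd.trans h1)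

theorem step {G : Type*} [Group G] [Finite G] {p : ℕ} [hp : Fact p.Prime] (N : Subgroup G) [hNn : N.Normal]
    (hp2 : ¬ p ^ 2 ∣ Nat.card G) (hg : Good p (Nat.card G))
    (hN : ∀ P : Sylow p N, (P : Subgroup N).Normal) (hq : Nat.card (G ⧸ N) = p ∨ ¬ p ∣ Nat.card (G ⧸ N))
    (P : Sylow p G) : (P : Subgroup G).Normal := by
  classical
  have hc : Nat.card G = Nat.card (G ⧸ N) * Nat.card N := Subgroup.card_eq_card_quotient_mul_card_subgroup N
  by_cases hpN : p ∣ Nat.card N
  · have h1 : ¬ p ∣ Nat.card (G ⧸ N) := by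
      intro h
      apply hp2
      rw [hc, pow_two]
      exact mul_dvd_mul h hpN
    have h2 : (P : Subgroup G) ≤ N := by
      have h3 : IsPGroup p ((P : Subgroup G).map (QuotientGroup.mk' N)) := P.isPGroup'.map _
      rcases h3.card_eq_or_dvd with h4 | h4
      · rw [Subgroup.card_eq_one, Subgroup.map_eq_bot_iff, QuotientGroup.ker_mk'] at h4
        exact h4
      · exact absurd (h4.trans (Subgroup.card_subgroup_dvd_card _)) h1
    exact normal_of_subgroupOf P N h2 (hN (P.subtype h2))
  · rcases hq with hq | hq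
    · have h1 := le_centralizer_of_good P N hpN (hg.mono (Subgroup.card_subgroup_dvd_card N))
      have h2 : N ≤ normalizer ((P : Subgroup G) : Set G) := h1.trans (Subgroup.centralizer_le_normalizer _)
      have h3 : (normalizer ((P : Subgroup G) : Set G)).index ∣ p := by
        have := Subgroup.index_dvd_of_le h2
        rwa [Subgroup.index_eq_card N, hq] at this
      have h4 : (normalizer ((P : Subgroup G) : Set G)).index ∣ (P : Subgroup G).index :=
        Subgroup.index_dvd_of_le le_normalizer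
      rcases (Nat.dvd_prime hp.out).1 h3 with h5 | h5
      · rw [Subgroup.index_eq_one] at h5
        exact Subgroup.normalizer_eq_top_iff.1 h5
      · rw [h5] at h4
        exact absurd h4 (P.not_dvd_index' (Subgroup.index_ne_zero_of_finite))
    · have h1 : ¬ p ∣ Nat.card G := by
        rw [hc, hp.out.dvd_mul]; push Not; exact ⟨hq, hpN⟩
      have h2 : (P : Subgroup G) = ⊥ := by
        rcases P.isPGroup'.card_eq_or_dvd with h4 | h4
        · exact Subgroup.card_eq_one.1 h4
        · exact absurd (h4.trans (Subgroup.card_subgroup_dvd_card _)) h1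
      rw [h2]; infer_instance

theorem exists_maxNormal (G : Type*) [Group G] [Finite G] [Nontrivial G] :
    ∃ N : Subgroup G, ∃ _ : N.Normal, N ≠ ⊤ ∧ IsSimpleGroup (G ⧸ N) := by
  classical
  have hfin : Set.Finite {N : Subgroup G | N.Normal ∧ N ≠ ⊤} := Set.toFinite _
  obtain ⟨N, hN, hmax⟩ := hfin.exists_maximal ⟨⊥, inferInstance, bot_ne_top⟩
  have hNn : N.Normal := hN.1
  refine ⟨N, hNn, hN.2, ?_⟩
  have hnt : Nontrivial (G ⧸ N) := QuotientGroup.nontrivial_iff.2 hN.2
  refine ⟨fun M hM => ?_⟩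
  by_cases h : M.comap (QuotientGroup.mk' N) = ⊤
  · right
    rw [← Subgroup.map_comap_eq_self_of_surjective (QuotientGroup.mk'_surjective N) M, h,
      ← MonoidHom.range_eq_map, MonoidHom.range_eq_top]
    exact QuotientGroup.mk'_surjective N
  · left
    have h1 : N ≤ M.comap (QuotientGroup.mk' N) := by
      intro x hx
      rw [Subgroup.mem_comap, QuotientGroup.mk'_apply, (QuotientGroup.eq_one_iff x).2 hx]
      exact one_mem _
    have h2 : M.comap (QuotientGroup.mk' N) ≤ N := hmax ⟨hM.comap _, h⟩ h1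
    rw [← Subgroup.map_comap_eq_self_of_surjective (QuotientGroup.mk'_surjective N) M, Subgroup.map_eq_bot_iff,
      QuotientGroup.ker_mk']
    exact h2

/-- Theorem X. -/
theorem closed_X {p : ℕ} [hp : Fact p.Prime] : ∀ (n : ℕ) (G : Type u) [Group G] [Finite G], Nat.card G = n →
    ¬ p ^ 2 ∣ n → Good p n →
    (∀ (H : Type u) [Group H] [Finite H], IsSimpleGroup H → ¬ IsMulCommutative H → Nat.card H ∣ n →
      ¬ p ∣ Nat.card H) → ∀ P : Sylow p G, (P : Subgroup G).Normal := by
  intro n
  induction n using Nat.strong_induction_on with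
  | _ n ih =>
    intro G _ _ hn hp2 hg hi P
    rcases subsingleton_or_nontrivial G with hG | hG
    · have : (P : Subgroup G) = ⊥ := Subsingleton.elim _ _
      rw [this]; infer_instance
    · obtain ⟨N, hNn, hNt, hs⟩ := exists_maxNormal G
      have hc : Nat.card G = Nat.card (G ⧸ N) * Nat.card N := Subgroup.card_eq_card_quotient_mul_card_subgroup N
      have hdN : Nat.card N ∣ n := by rw [← hn]; exact Subgroup.card_subgroup_dvd_card N
      have hdQ : Nat.card (G ⧸ N) ∣ n := by rw [← hn]; exact Subgroup.card_quotient_dvd_card N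
      have hlt : Nat.card N < n := by
        rw [← hn]
        exact lt_of_le_of_ne (Subgroup.card_le_card_group N) (fun h => hNt (Subgroup.eq_top_of_card_eq N h))
      refine step N (by rw [hn]; exact hp2) (by rw [hn]; exact hg)
        (ih _ hlt N rfl (fun h => hp2 (h.trans hdN)) (hg.mono hdN)
          (fun H _ _ h1 h2 h3 => hi H h1 h2 (h3.trans hdN))) ?_ P
      by_cases hcm : IsMulCommutative (G ⧸ N)
      · letI : CommGroup (G ⧸ N) := { (inferInstance : Group (G ⧸ N)) with
          mul_comm := fun a b => (hcm.is_comm.comm a b) }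
        have h1 : (Nat.card (G ⧸ N)).Prime := IsSimpleGroup.prime_card
        by_cases h2 : p ∣ Nat.card (G ⧸ N)
        · exact Or.inl (((Nat.prime_dvd_prime_iff_eq hp.out h1).1 h2).symm)
        · exact Or.inr h2
      · exact Or.inr (hi (G ⧸ N) hs hcm hdQ)

/-- Theorem Y. -/
theorem closed_Y {p : ℕ} [hp : Fact p.Prime] {G : Type u} [Group G] [Finite G]
    (hp2 : ¬ p ^ 2 ∣ Nat.card G) (hg : Good p (Nat.card G)) (hns : ¬ IsSimpleGroup G)
    (hi : ∀ (H : Type u) [Group H] [Finite H], IsSimpleGroup H → ¬ IsMulCommutative H → Nat.card H ∣ Nat.card G →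
      Nat.card H < Nat.card G → ¬ p ∣ Nat.card H) (P : Sylow p G) : (P : Subgroup G).Normal := by
  rcases subsingleton_or_nontrivial G with hG | hG
  · have : (P : Subgroup G) = ⊥ := Subsingleton.elim _ _
    rw [this]; infer_instance
  · obtain ⟨N, hNn, hNt, hs⟩ := exists_maxNormal G
    have hc : Nat.card G = Nat.card (G ⧸ N) * Nat.card N := Subgroup.card_eq_card_quotient_mul_card_subgroup N
    have hdN : Nat.card N ∣ Nat.card G := Subgroup.card_subgroup_dvd_card N
    have hdQ : Nat.card (G ⧸ N) ∣ Nat.card G := Subgroup.card_quotient_dvd_card N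
    have hlt : Nat.card N < Nat.card G :=
      lt_of_le_of_ne (Subgroup.card_le_card_group N) (fun h => hNt (Subgroup.eq_top_of_card_eq N h))
    have hN1 : Nat.card N ≠ 1 := by
      intro h
      apply hns
      have h1 : N = ⊥ := Subgroup.card_eq_one.1 h
      subst h1
      exact IsSimpleGroup.isSimpleGroup_of_surjective (QuotientGroup.quotientBot (G := G)).toMonoidHom
        (QuotientGroup.quotientBot (G := G)).surjective
    refine step N hp2 hg (closed_X _ N rfl (fun h => hp2 (h.trans hdN)) (hg.mono hdN)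
        (fun H _ _ h1 h2 h3 => hi H h1 h2 (h3.trans hdN) ((Nat.le_of_dvd Nat.card_pos h3).trans_lt hlt))) ?_ P
    by_cases hcm : IsMulCommutative (G ⧸ N)
    · letI : CommGroup (G ⧸ N) := { (inferInstance : Group (G ⧸ N)) with
        mul_comm := fun a b => (hcm.is_comm.comm a b) }
      have h1 : (Nat.card (G ⧸ N)).Prime := IsSimpleGroup.prime_card
      by_cases h2 : p ∣ Nat.card (G ⧸ N)
      · exact Or.inl (((Nat.prime_dvd_prime_iff_eq hp.out h1).1 h2).symm)
      · exact Or.inr h2
    · refine Or.inr (hi (G ⧸ N) hs hcm hdQ ?_)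
      rw [hc]
      have : 0 < Nat.card (G ⧸ N) := Nat.card_pos
      have h0 : 0 < Nat.card N := Nat.card_pos
      nlinarith [Nat.lt_of_le_of_ne h0 (Ne.symm hN1)]


/-- the sharper condition on prime powers. -/
def GoodW (p r a n : ℕ) : Prop := ∀ s c, s.Prime → s ≠ p → 1 ≤ c → s ^ c ∣ n → p ∣ s ^ c - 1 → s = r ∧ c = a

/-- Theorem W: solvable groups. -/
theorem closed_W {p r a : ℕ} [hp : Fact p.Prime] [hr : Fact r.Prime] {G : Type u} [Group G] [Finite G]
    (hsol : Group.IsSolvable G) (hpr : r ≠ p)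
    (hp2 : ¬ p ^ 2 ∣ Nat.card G) (hg : GoodW p r a (Nat.card G)) (hr2 : ¬ r ^ (a + 1) ∣ Nat.card G) :
    p ∉ Cfsg.degreePrimes G ∨ r ∉ Cfsg.degreePrimes G := by
  classical
  obtain ⟨P⟩ : Nonempty (Sylow p G) := inferInstance
  by_cases hPn : (P : Subgroup G).Normal
  · exact Or.inl (not_mem_degreePrimes P hPn (comm_of_sq P hp2))
  -- `P` does not centralise some core
  have hPc : ¬ (∀ s : Nat.Primes, Cfsg.pCore (s : ℕ) G ≤ centralizer ((P : Subgroup G) : Set G)) := by
    intro hall
    have h1 : Cfsg.fittingSubgroup G ≤ centralizer ((P : Subgroup G) : Set G) := by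
      rw [Cfsg.Agent.Solv.fitting_eq_iSup_pCore]
      exact iSup_le hall
    have h2 : (P : Subgroup G) ≤ Cfsg.fittingSubgroup G := by
      refine le_trans ?_ (Cfsg.Agent.Solv.centralizer_fitting_le (G := G))
      rw [← Subgroup.le_centralizer_iff]
      exact h1
    have h3 : Group.IsNilpotent (Cfsg.fittingSubgroup G) := Cfsg.Agent.Solv.fitting_isNilpotent
    apply hPn
    refine normal_of_subgroupOf P _ h2 ?_
    have h4 : ∀ (q : ℕ) (_ : Fact q.Prime) (Q : Sylow q (Cfsg.fittingSubgroup G)),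
        (Q : Subgroup (Cfsg.fittingSubgroup G)).Normal :=
      ((Group.isNilpotent_of_finite_tfae (G := Cfsg.fittingSubgroup G)).out 0 3).1 h3
    exact h4 p hp (P.subtype h2)
  push Not at hPc
  obtain ⟨⟨s, hs⟩, hs1⟩ := hPc
  haveI : Fact s.Prime := ⟨hs⟩
  have hPinv : ∀ (K : Subgroup G), K.Normal → ∀ g ∈ (P : Subgroup G), ∀ x ∈ K, g * x * g⁻¹ ∈ K :=
    fun K hK g _ x hx => hK.conj_mem x hx g
  by_cases hsp : s = p
  · -- the `p`-core is inside `P` which is abelian
    exfalso
    subst hsp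
    apply hs1
    have h1 : Cfsg.pCore s G ≤ (P : Subgroup G) := Cfsg.Agent.Solv.pCore_le_sylow P
    intro x hx
    exact mem_centralizer_iff.2 (fun g hg' => comm_of_sq P hp2 g hg' x (h1 hx))
  set Q : Subgroup G := Cfsg.pCore s G with hQ
  have hQs : IsPGroup s Q := Cfsg.Agent.Solv.pCore_isPGroup s
  have hQn : Q.Normal := inferInstance
  obtain ⟨b, c, hc1, hc2, hc3, hc4⟩ := exists_pow_of_not_le hsp (P : Subgroup G) Q P.isPGroup' hQs
    (hPinv Q hQn) hs1
  have hQd : Nat.card Q ∣ Nat.card G := Subgroup.card_subgroup_dvd_card Q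
  obtain ⟨rfl, rfl⟩ := hg s c hs hsp hc1 ((Dvd.intro_left _ rfl).trans (by rw [← pow_add, ← hc2]; exact hQd)) hc4
  have hb : b = 0 := by
    by_contra hb
    apply hr2
    refine (pow_dvd_pow s (show c + 1 ≤ b + c by omega)).trans ?_
    rw [← hc2]; exact hQd
  subst hb
  rw [pow_zero] at hc3
  rw [zero_add] at hc2
  -- the centre
  set Z : Subgroup G := (Subgroup.center Q).map Q.subtype with hZ
  have hZn : Z.Normal := ConjAct.normal_of_characteristic_of_normal
  have hZQ : Z ≤ Q := map_subtype_le _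
  have hZs : IsPGroup s Z := hQs.to_le hZQ
  have hQnt : Nontrivial Q := by
    rw [← Finite.one_lt_card_iff_nontrivial, hc2]
    exact Nat.one_lt_pow (by omega) hs.one_lt
  have hZnt : Nontrivial (Subgroup.center Q) := hQs.center_nontrivial
  have hZcard : 1 < Nat.card Z := by
    rw [hZ, Subgroup.card_map_of_injective (subtype_injective _)]
    exact Finite.one_lt_card_iff_nontrivial.2 hZnt
  have hZi : Nat.card (Z ⊓ centralizer ((P : Subgroup G) : Set G) : Subgroup G) = 1 := by
    have h1 : (Z ⊓ centralizer ((P : Subgroup G) : Set G) : Subgroup G) ≤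
      Q ⊓ centralizer ((P : Subgroup G) : Set G) := inf_le_inf_right _ hZQ
    rw [Subgroup.card_eq_one] at hc3 ⊢
    rw [hc3] at h1
    exact le_bot_iff.1 h1
  have hZc : ¬ Z ≤ centralizer ((P : Subgroup G) : Set G) := by
    intro h
    rw [inf_eq_left.2 h] at hZi
    omega
  obtain ⟨b', c', hc1', hc2', hc3', hc4'⟩ := exists_pow_of_not_le hsp (P : Subgroup G) Z P.isPGroup' hZs
    (hPinv Z hZn) hZc
  have hZd : Nat.card Z ∣ Nat.card G := Subgroup.card_subgroup_dvd_card Z
  obtain ⟨-, rfl⟩ := hg s c' hs hsp hc1' ((Dvd.intro_left _ rfl).trans (by rw [← pow_add, ← hc2']; exact hZd)) hc4'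
  have hb' : b' = 0 := by
    by_contra hb
    apply hr2
    refine (pow_dvd_pow s (show c' + 1 ≤ b' + c' by omega)).trans ?_
    rw [← hc2']; exact hZd
  subst hb'
  rw [zero_add] at hc2'
  have hZeq : Z = Q := eq_of_le_of_card_ge hZQ (by rw [hc2, hc2'])
  have hQab : ∀ x ∈ Q, ∀ y ∈ Q, x * y = y * x := by
    intro x hx y hy
    rw [← hZeq] at hx
    obtain ⟨z, hz, rfl⟩ := hx
    exact congrArg Subtype.val ((Subgroup.mem_center_iff.1 hz ⟨y, hy⟩).symm)
  -- `Q` is a Sylow subgroup
  have hQcard : Nat.card Q = s ^ (Nat.card G).factorization s := by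
    rw [hc2]
    congr 1
    apply le_antisymm
    · exact (hs.pow_dvd_iff_le_factorization Nat.card_pos.ne').1 (by rw [← hc2]; exact hQd)
    · by_contra hcon
      push Not at hcon
      exact hr2 ((hs.pow_dvd_iff_le_factorization Nat.card_pos.ne').2 hcon)
  right
  exact not_mem_degreePrimes (Sylow.ofCard Q hQcard) (by rw [Sylow.coe_ofCard]; exact hQn)
    (by rw [Sylow.coe_ofCard]; exact hQab)

/-- decidable checks. -/
def goodB (p n : ℕ) : Bool := (List.range (n + 1)).all fun d =>
  !(decide (d ∣ n) && decide (p ∣ d - 1) && decide (1 < d)) ||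
    (List.range d).any fun e => decide (e ∣ d) && decide (1 < e) && decide (1 < d / e) && decide (Nat.gcd e (d / e) = 1)

def goodWB (p q n : ℕ) : Bool := (List.range (n + 1)).all fun d =>
  !(decide (d ∣ n) && decide (p ∣ d - 1) && decide (1 < d)) || decide (d = q) ||
    (List.range d).any fun e => decide (e ∣ d) && decide (1 < e) && decide (1 < d / e) && decide (Nat.gcd e (d / e) = 1)

theorem goodB_spec {p n : ℕ} (h : goodB p n = true) : ∀ d < n + 1, d ∣ n → p ∣ d - 1 → 1 < d →
    ∃ e < d, e ∣ d ∧ 1 < e ∧ 1 < d / e ∧ Nat.Coprime e (d / e) := by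
  intro d hd h1 h2 h3
  have := List.all_eq_true.1 h d (List.mem_range.2 hd)
  simp only [h1, h2, h3, decide_true, Bool.and_self, Bool.not_true, Bool.false_or, List.any_eq_true,
    List.mem_range, Bool.and_eq_true, decide_eq_true_eq] at this
  obtain ⟨e, he, ⟨⟨h4, h5⟩, h6⟩, h7⟩ := this
  exact ⟨e, he, h4, h5, h6, h7⟩

theorem goodWB_spec {p q n : ℕ} (h : goodWB p q n = true) : ∀ d < n + 1, d ∣ n → p ∣ d - 1 → 1 < d → d = q ∨
    ∃ e < d, e ∣ d ∧ 1 < e ∧ 1 < d / e ∧ Nat.Coprime e (d / e) := by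
  intro d hd h1 h2 h3
  have := List.all_eq_true.1 h d (List.mem_range.2 hd)
  simp only [h1, h2, h3, decide_true, Bool.and_self, Bool.not_true, Bool.false_or, List.any_eq_true,
    List.mem_range, Bool.and_eq_true, decide_eq_true_eq, Bool.or_eq_true] at this
  rcases this with h8 | ⟨e, he, ⟨⟨h4, h5⟩, h6⟩, h7⟩
  · exact Or.inl h8
  · exact Or.inr ⟨e, he, h4, h5, h6, h7⟩

theorem not_split {s c e : ℕ} (hs : s.Prime) (h1 : e ∣ s ^ c) (h2 : 1 < e) (h3 : 1 < s ^ c / e)
    (h4 : Nat.Coprime e (s ^ c / e)) : False := by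
  have h5 : s ∣ e := by
    obtain ⟨i, hi, rfl⟩ := (Nat.dvd_prime_pow hs).1 h1
    refine dvd_pow_self s ?_
    rintro rfl
    simp at h2
  have h6 : s ∣ s ^ c / e := by
    have h7 : s ^ c / e ∣ s ^ c := Nat.div_dvd_of_dvd h1
    obtain ⟨i, hi, h8⟩ := (Nat.dvd_prime_pow hs).1 h7
    rw [h8]
    refine dvd_pow_self s ?_
    rintro rfl
    rw [h8] at h3
    simp at h3
  exact hs.one_lt.ne' (Nat.eq_one_of_dvd_coprimes h4 h5 h6)

theorem good_of_B {p n : ℕ} (hn : 0 < n) (h' : goodB p n = true) : Good p n := by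
  have h := goodB_spec h'
  intro s c hs hsp hc hd hpd
  obtain ⟨e, he1, he2, he3, he4, he5⟩ := h (s ^ c) (Nat.lt_succ_of_le (Nat.le_of_dvd hn hd)) hd hpd
    (Nat.one_lt_pow (by omega) hs.one_lt)
  exact not_split hs he2 he3 he4 he5

theorem goodW_of_B {p r a n : ℕ} (hn : 0 < n) (hr : r.Prime) (h' : goodWB p (r ^ a) n = true) :
    GoodW p r a n := by
  have h := goodWB_spec h'
  intro s c hs hsp hc hd hpd
  rcases h (s ^ c) (Nat.lt_succ_of_le (Nat.le_of_dvd hn hd)) hd hpd
    (Nat.one_lt_pow (by omega) hs.one_lt) with h1 | ⟨e, he1, he2, he3, he4, he5⟩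
  · have h2 : s = r := by
      have : s ∣ r ^ a := by rw [← h1]; exact dvd_pow_self s (by omega)
      exact (Nat.prime_dvd_prime_iff_eq hs hr).1 (hs.dvd_of_dvd_pow this)
    subst h2
    exact ⟨rfl, Nat.pow_right_injective hs.two_le h1⟩
  · exact absurd he5 (fun h => not_split hs he2 he3 he4 h)

example : goodB 11 660 = true := by decide +kernel
example : goodWB 13 27 5616 = true := by decide +kernel

end Cfsg.Agent.H18.PCl
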