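import Cfsg.Agent.H64.TC1
import Cfsg.Agent.H99.TCcliff

/-! Piece TC3 of the three characters theorem (helper18 for helper16) -/

set_option autoImplicit false
set_option linter.unusedSectionVars false

namespace Cfsg.Agent.H18.TC3

open scoped BigOperators ComplexConjugate
open Cfsg Cfsg.Agent.CharBase Cfsg.Agent.Char Cfsg.Agent.BlkInd.TC Cfsg.Agent.H64 Cfsg.Agent.H99

universe u

variable {X : Type u} [Group X] [Fintype X] {C : Subgroup X} [hC : C.Normal] [Fintype C]
  {θ : IrrCharacter C}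

theorem even_fact (hinv : Iv C θ) (_h2 : Nat.card {χ : IrrCharacter X // Ov C θ χ} ≤ 2)
    (q : ℕ) (hq : q.Prime)
    (hgd : ∀ g : X ⧸ C, Gd C θ g → g ≠ 1 → ¬ ∃ k, orderOf g = q ^ k) :
    Even ((Nat.card (X ⧸ C)).factorization q) := by
  classical
  have : Fact q.Prime := ⟨hq⟩
  have : Fintype (IrrCharacter X) := Fintype.ofFinite _
  obtain ⟨Q⟩ := (inferInstance : Nonempty (Sylow q (X ⧸ C)))
  obtain ⟨I, hI⟩ : ∃ I : Subgroup X, I = (Q : Subgroup (X ⧸ C)).comap (QuotientGroup.mk' C) := ⟨_, rfl⟩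
  have hCI : C ≤ I := by
    intro x hx
    rw [hI, Subgroup.mem_comap]
    have : (QuotientGroup.mk' C) x = 1 := (QuotientGroup.eq_one_iff x).mpr hx
    rw [this]; exact one_mem _
  have : Fintype I := Fintype.ofFinite _
  have : Fintype (C.subgroupOf I) := Fintype.ofFinite _
  have : (C.subgroupOf I).Normal := Subgroup.normal_subgroupOf
  have : Fintype (IrrCharacter I) := Fintype.ofFinite _
  set n := (Nat.card (X ⧸ C)).factorization q with hn
  have hcardQ : Nat.card (Q : Subgroup (X ⧸ C)) = q ^ n := Q.card_eq_multiplicity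
  have hidx : (C.subgroupOf I).index = q ^ n := by
    have h1 : C.relIndex I = Nat.card (Q : Subgroup (X ⧸ C)) := by
      have hc : C = (⊥ : Subgroup (X ⧸ C)).comap (QuotientGroup.mk' C) := by
        rw [MonoidHom.comap_bot, QuotientGroup.ker_mk']
      conv_lhs => rw [hc]
      rw [Subgroup.relIndex_comap, hI,
        Subgroup.map_comap_eq_self_of_surjective (QuotientGroup.mk'_surjective C), Subgroup.relIndex_bot_left]
    rw [← hcardQ, ← h1]; rfl
  -- the transported character
  have hinv' : Iv (C.subgroupOf I) (TCcliff.tr hCI θ) := by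
    intro x m
    rw [TCcliff.tr_apply, TCcliff.tr_apply]
    exact hinv (x : X) ⟨((m : I) : X), Subgroup.mem_subgroupOf.mp m.2⟩
  obtain ⟨e, he, hov, hsum⟩ := TC1.exists_e (TCcliff.tr hCI θ) hinv'
  have hsum1 := hsum
  rw [hidx] at hsum1
  -- a character with small multiplicity
  obtain ⟨η, hη0, hη⟩ : ∃ η : IrrCharacter I, e η ≠ 0 ∧ 2 * (e η).factorization q ≤ n := by
    by_contra hcon
    push Not at hcon
    have h1 : q ^ (n + 1) ∣ ∑ χ, e χ ^ 2 := by
      refine Finset.dvd_sum fun χ _ => ?_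
      by_cases h0 : e χ = 0
      · rw [h0]; exact ⟨0, by ring⟩
      · have h2 := hcon χ h0
        have h3 : (e χ ^ 2).factorization q = 2 * (e χ).factorization q := by
          rw [Nat.factorization_pow]; rfl
        exact (hq.pow_dvd_iff_le_factorization (pow_ne_zero 2 h0)).2 (by omega)
    rw [← hsum1] at h1
    have := (Nat.pow_dvd_pow_iff_le_right hq.one_lt).1 h1
    omega
  obtain ⟨m, hm, hmov, hmsum⟩ := TC1.exists_e θ hinv
  have hkey : ∀ ψ : IrrCharacter X, q ^ n ∣ m ψ * e η := by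
    intro ψ
    by_cases h0 : m ψ = 0
    · rw [h0, Nat.zero_mul]; exact Dvd.intro_left 0 (Nat.zero_mul _)
    have hψov : Ov C θ ψ := (hmov ψ).1 h0
    have hrψ := TC1.restr hinv hψov
    have hmψ : classInner (fun n : C => (ψ : X → ℂ) n) (θ : C → ℂ) = m ψ := by
      rw [← hm ψ, frobenius_reciprocity C (θ : C → ℂ) (ψ : X → ℂ) (irr_isClassFunction ψ),
        classInner_comm_of_isCharacter (irr_isCharacter θ) (isCharacter_restrict (irr_isCharacter ψ) C)]
    rw [hmψ] at hrψ
    have hηov : Ov (C.subgroupOf I) (TCcliff.tr hCI θ) η := (hov η).1 hη0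
    have hrη := TC1.restr hinv' hηov
    have heη : classInner (fun n : C.subgroupOf I => (η : I → ℂ) n) ((TCcliff.tr hCI θ : IrrCharacter (C.subgroupOf I)) : C.subgroupOf I → ℂ) = e η := by
      rw [← he η, frobenius_reciprocity (C.subgroupOf I) ((TCcliff.tr hCI θ : IrrCharacter (C.subgroupOf I)) : C.subgroupOf I → ℂ) (η : I → ℂ) (irr_isClassFunction η),
        classInner_comm_of_isCharacter (irr_isCharacter (TCcliff.tr hCI θ)) (isCharacter_restrict (irr_isCharacter η) (C.subgroupOf I))]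
    rw [heη] at hrη
    -- psi vanishes off C on I
    have hvan : ∀ t : I, (t : X) ∉ C → (ψ : X → ℂ) t = 0 := by
      intro t ht
      by_contra hne
      have hg : Gd C θ ((t : X) : X ⧸ C) := ⟨ψ, hψov, t, rfl, hne⟩
      refine hgd _ hg (fun h => ht ((QuotientGroup.eq_one_iff (t : X)).1 h)) ?_
      have hmem : (((t : X) : X ⧸ C)) ∈ (Q : Subgroup (X ⧸ C)) := by
        have hle : I ≤ (Q : Subgroup (X ⧸ C)).comap (QuotientGroup.mk' C) := hI.le
        exact hle t.2
      have := (IsPGroup.iff_orderOf.1 Q.isPGroup') ⟨((t : X) : X ⧸ C), hmem⟩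
      obtain ⟨k, hk⟩ := this
      exact ⟨k, by rw [← hk, Subgroup.orderOf_mk]⟩
    -- the inner product
    obtain ⟨k, hk⟩ := classInner_natCast (isCharacter_restrict (irr_isCharacter ψ) I) (irr_isCharacter η)
    have hI0 : (Nat.card I : ℂ) ≠ 0 := by exact_mod_cast Nat.card_pos.ne'
    have hcalc : (Nat.card I : ℂ) * k = (m ψ : ℂ) * (e η : ℂ) * Nat.card C := by
      rw [← hk]
      unfold classInner
      rw [← mul_assoc, mul_inv_cancel₀ hI0, one_mul]
      rw [← Fintype.sum_subtype_add_sum_subtype (fun t : I => t ∈ C.subgroupOf I)]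
      have hz : ∑ t : {t : I // ¬ t ∈ C.subgroupOf I}, (fun t : I => (ψ : X → ℂ) t) t * conj ((η : I → ℂ) t) = 0 := by
        refine Finset.sum_eq_zero fun t _ => ?_
        have h1 : (ψ : X → ℂ) ((t : I) : X) = 0 := hvan t.1 (fun h => t.2 (Subgroup.mem_subgroupOf.2 h))
        show (ψ : X → ℂ) ((t : I) : X) * _ = 0
        rw [h1, zero_mul]
      rw [hz, add_zero]
      have hself := classInner_irr_self (TCcliff.tr hCI θ)
      unfold classInner at hself
      have hC'0 : (Nat.card (C.subgroupOf I) : ℂ) ≠ 0 := by exact_mod_cast Nat.card_pos.ne'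
      have hself' : ∑ g : C.subgroupOf I, ((TCcliff.tr hCI θ : IrrCharacter (C.subgroupOf I)) : C.subgroupOf I → ℂ) g *
          conj (((TCcliff.tr hCI θ : IrrCharacter (C.subgroupOf I)) : C.subgroupOf I → ℂ) g) = Nat.card (C.subgroupOf I) := by
        have := congrArg (fun z => (Nat.card (C.subgroupOf I) : ℂ) * z) hself
        simp only [mul_one] at this
        rw [← mul_assoc, mul_inv_cancel₀ hC'0, one_mul] at this
        exact this
      rw [← Nat.card_congr (Subgroup.subgroupOfEquivOfLe hCI).toEquiv, ← hself', Finset.mul_sum]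
      refine Finset.sum_bij (fun c _ => c) (fun _ _ => Finset.mem_univ _) (fun _ _ _ _ h => h)
        (fun c _ => ⟨c, by simp, rfl⟩) (fun c _ => ?_)
      have h1 : (ψ : X → ℂ) ((c : I) : X) = (m ψ : ℂ) * ((TCcliff.tr hCI θ : IrrCharacter (C.subgroupOf I)) : C.subgroupOf I → ℂ) c :=
        congrFun hrψ ⟨((c : I) : X), Subgroup.mem_subgroupOf.mp c.2⟩
      have h2 : (η : I → ℂ) (c : I) = (e η : ℂ) * ((TCcliff.tr hCI θ : IrrCharacter (C.subgroupOf I)) : C.subgroupOf I → ℂ) c :=
        congrFun hrη c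
      show (ψ : X → ℂ) ((c : I) : X) * conj ((η : I → ℂ) (c : I)) =
        (m ψ : ℂ) * (e η : ℂ) * (((TCcliff.tr hCI θ : IrrCharacter (C.subgroupOf I)) : C.subgroupOf I → ℂ) c *
          conj (((TCcliff.tr hCI θ : IrrCharacter (C.subgroupOf I)) : C.subgroupOf I → ℂ) c))
      rw [h1, h2, map_mul, Complex.conj_natCast]
      ring
    have hcardI : Nat.card I = q ^ n * Nat.card C := by
      rw [← hidx, ← Subgroup.index_mul_card (C.subgroupOf I), Nat.card_congr (Subgroup.subgroupOfEquivOfLe hCI).toEquiv]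
    have hC0 : Nat.card C ≠ 0 := Nat.card_pos.ne'
    have h5 : Nat.card I * k = m ψ * e η * Nat.card C := by exact_mod_cast hcalc
    rw [hcardI] at h5
    have h6 : q ^ n * k = m ψ * e η := by
      apply Nat.eq_of_mul_eq_mul_right (Nat.pos_of_ne_zero hC0)
      rw [← h5]; ring
    exact ⟨k, h6.symm⟩
  -- conclusion
  set v := (e η).factorization q with hv
  have hvn : v ≤ n := by omega
  have hdiv : ∀ ψ : IrrCharacter X, q ^ (n - v) ∣ m ψ := by
    intro ψ
    by_cases h0 : m ψ = 0
    · rw [h0]; exact dvd_zero _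
    have h1 := (hq.pow_dvd_iff_le_factorization (mul_ne_zero h0 hη0)).1 (hkey ψ)
    rw [Nat.factorization_mul h0 hη0, Finsupp.add_apply] at h1
    exact (hq.pow_dvd_iff_le_factorization h0).2 (by omega)
  have h7 : q ^ (2 * (n - v)) ∣ Nat.card (X ⧸ C) := by
    have h8 : C.index = ∑ χ, m χ ^ 2 := hmsum
    have h9 : Nat.card (X ⧸ C) = ∑ χ, m χ ^ 2 := h8
    rw [h9]
    refine Finset.dvd_sum fun ψ _ => ?_
    rw [mul_comm, pow_mul]
    exact pow_dvd_pow_of_dvd (hdiv ψ) 2
  have h10 := (hq.pow_dvd_iff_le_factorization (Nat.card_pos.ne')).1 h7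
  rw [← hn] at h10
  exact ⟨v, by omega⟩

end Cfsg.Agent.H18.TC3
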